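import Cfsg.Agent.Lib.LX.Sg

/-!
# Families of Eichler elements centralized by point stabilizers
-/

set_option autoImplicit false

namespace Cfsg.Lib.RD

open QuadraticMap Cfsg.Lib.Orth Cfsg.Lib.U6 Cfsg.Lib.LX Module

variable {V : Type*} [AddCommGroup V] [Module (ZMod 2) V] {q : QuadraticForm (ZMod 2) V}
  {a b g n : O q} {s s' f f' u v y : V} {Γ N : Subgroup (O q)} {S : Set V} {A : V → Subgroup (O q)}

theorem p4 {G : Type*} [Monoid G] (x : G) : x ^ 4 = x * x * (x * x) := by simp [pow_succ, mul_assoc]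

theorem ei_ap (qs : q s = 0) (sf : polar q s f = 0) (v : V) :
    (eich q s f).1 v = v + polar q f v • s + polar q s v • f + (q f * polar q s v) • s := by
  rw [eich_apply qs sf, vsub, vsub]

theorem ei_sq (qs : q s = 0) (sf : polar q s f = 0) : eich q s f * eich q s f = 1 := by
  rw [← eich_add qs sf sf, vadd_self, eich_zero]

theorem ei_self (qs : q s = 0) : eich q s s = 1 := by simpa using eich_self_smul qs 1

theorem eq_ei (qs : q s = 0) (s0 : s ≠ 0) (h : ∀ v, polar q s v = 0 → a.1 v = v ∨ a.1 v = v + s)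
    (hy : polar q s y = 1) : polar q s (a.1 y + y) = 0 ∧ a = eich q s (a.1 y + y) := by
  have fs : a.1 s = s := (h s (polar_self2 s)).resolve_right fun e => O.apply_ne_zero a s0 (e.trans (vadd_self s))
  have c := polar_fix a fs y
  have k : ∀ v, polar q s v = 0 → a.1 v = (eich q s (a.1 y + y)).1 v := fun v hv => by
    have e := O.map_polar a y v
    rw [ei_ap qs c, hv, polar_add_left, mul_zero, zero_smul, zero_smul, add_zero, add_zero]
    rcases h v hv with r | r <;> rw [r] at e ⊢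
    · rw [e, vadd_self, zero_smul, add_zero]
    · rw [polar_add_right, ← fs, O.map_polar a, polar_comm q y s, hy] at e
      rw [← e, vadd_cancel, one_smul]
  have ky : a.1 y = (eich q s (a.1 y + y)).1 y := by rw [ei_ap qs c, hy, q_move]; v2
  refine ⟨c, O.ext fun v => ?_⟩
  rcases z2 (polar q s v) with e | e
  · exact k v e
  · have := k (v + y) (by rw [polar_add_right, e, hy]; rfl)
    rwa [map_add, map_add, ← ky, add_left_inj] at this

theorem ei_eq_one (nd : ND q) (qs : q s = 0) (s0 : s ≠ 0) (sf : polar q s f = 0) (e : eich q s f = 1) :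
    f = 0 ∨ f = s := by
  obtain ⟨y, hy⟩ := nd.exists_polar_ne s0
  have := ei_ap qs sf y
  rw [e, O.one_apply, z2_ne.1 hy] at this
  have k : f = (polar q f y + q f) • s := by
    rw [← vadd_eq_zero, ← vadd_self y]; nth_rewrite 3 [this]; v2
  rcases z2 (polar q f y + q f) with r | r <;> rw [r] at k <;> simp [k]

theorem ei_fix (nd : ND q) (qs : q s = 0) (s0 : s ≠ 0) (sf : polar q s f = 0) (e : n.1 s = s)
    (c : Commute n (eich q s f)) : n.1 f = f ∨ n.1 f = f + s := by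
  have k := conj_eich n s f
  have sf' : polar q s (n.1 f) = 0 := by rw [← sf, ← e, O.map_polar n, e]
  rw [c.eq, mul_inv_cancel_right, e] at k
  refine (ei_eq_one nd qs s0 (f := n.1 f + f) (by rw [polar_add_right, sf, sf', add_zero])
    (by rw [eich_add qs sf' sf, ← k, ei_sq qs sf])).imp vadd_eq_zero.1 fun r => ?_
  rw [← r, add_comm, vadd_cancel']

/-- A family of groups of Eichler elements. -/
structure Fam (Γ N : Subgroup (O q)) (S : Set V) (A : V → Subgroup (O q)) : Prop where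
  nd : ND q
  qs : ∀ s ∈ S, q s = 0
  s0 : ∀ s ∈ S, s ≠ 0
  le : N ≤ Γ
  cS : ∀ s ∈ S, ∀ g ∈ Γ, g.1 s ∈ S
  lN : ∀ s ∈ S, A s ≤ N
  cA : ∀ s ∈ S, ∀ g ∈ Γ, ∀ a ∈ A s, g * a * g⁻¹ ∈ A (g.1 s)
  ei : ∀ s ∈ S, ∀ a ∈ A s, ∀ v, polar q s v = 0 → a.1 v = v ∨ a.1 v = v + s
  key : ∀ s ∈ S, ∀ n ∈ N, n.1 s = s → ∀ a ∈ A s, Commute n a
  ne : ∀ s ∈ S, ∃ a ∈ A s, a ≠ 1
  two : ∀ s ∈ S, ∀ a ∈ A s, a ≠ 1 → ∃ b ∈ A s, b ≠ 1 ∧ b ≠ a ∧ ∀ y, polar q s y = 1 → q (b.1 y + y) = q (a.1 y + y)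
  bs : ∀ a ∈ Γ, a * a = 1 → (∀ g ∈ Γ, (a * (g * a * g⁻¹)) ^ 4 = 1) → a = 1

/-- the parameters -/
structure Fp (A : V → Subgroup (O q)) (s f : V) : Prop where
  p : polar q s f = 0
  m : eich q s f ∈ A s

namespace Fam

variable (h : Fam Γ N S A) (hs : s ∈ S)
include h hs

theorem add (k : Fp A s f) (k' : Fp A s f') : Fp A s (f + f') :=
  ⟨by rw [polar_add_right, k.p, k'.p, add_zero], eich_add (h.qs s hs) k.p k'.p ▸ mul_mem k.m k'.m⟩
theorem smul (c : ZMod 2) : Fp A s (c • s) :=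
  ⟨by rw [polar_smul_right', polar_self2, mul_zero], (eich_self_smul (h.qs s hs) c).symm ▸ one_mem _⟩
theorem conj (k : Fp A s f) (hg : g ∈ Γ) : Fp A (g.1 s) (g.1 f) :=
  ⟨by rw [O.map_polar g, k.p], conj_eich g s f ▸ h.cA s hs g hg _ k.m⟩
theorem mem (k : Fp A s f) : eich q s f ∈ Γ := h.le (h.lN s hs k.m)
theorem ex (ha : a ∈ A s) : ∃ f, Fp A s f ∧ a = eich q s f :=
  let ⟨_, hy⟩ := h.nd.exists_polar_ne (h.s0 s hs)
  have := eq_ei (h.qs s hs) (h.s0 s hs) (h.ei s hs a ha) (z2_ne.1 hy)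
  ⟨_, ⟨this.1, this.2 ▸ ha⟩, this.2⟩
theorem fix (k : Fp A s f) (hn : n ∈ N) (e : n.1 s = s) : n.1 f = f ∨ n.1 f = f + s :=
  ei_fix h.nd (h.qs s hs) (h.s0 s hs) k.p e (h.key s hs n hn e _ k.m)
theorem one (k : f = 0 ∨ f = s) : eich q s f = 1 := by
  rcases k with rfl | rfl
  exacts [eich_zero _, ei_self (h.qs _ hs)]
theorem ex1 : ∃ f, Fp A s f ∧ ¬ (f = 0 ∨ f = s) :=
  let ⟨_, ha, n⟩ := h.ne s hs
  let ⟨f, k, e⟩ := h.ex hs ha
  ⟨f, k, fun r => n (e.trans (h.one hs r))⟩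

theorem two' (k : Fp A s f) (n : ¬ (f = 0 ∨ f = s)) :
    ∃ u, Fp A s u ∧ ¬ (u = 0 ∨ u = s) ∧ ¬ (u + f = 0 ∨ u + f = s) ∧ q u = q f := by
  have qs := h.qs s hs
  obtain ⟨b, hb, b1, b2, e⟩ := h.two s hs _ k.m fun e => n (ei_eq_one h.nd qs (h.s0 s hs) k.p e)
  obtain ⟨y, hy⟩ := h.nd.exists_polar_ne (h.s0 s hs)
  have hy := z2_ne.1 hy
  have := eq_ei qs (h.s0 s hs) (h.ei s hs b hb) hy
  refine ⟨_, ⟨this.1, this.2 ▸ hb⟩, fun r => b1 (this.2.trans (h.one hs r)), fun r => b2 ?_, ?_⟩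
  · have r := h.one hs r
    rw [eich_add qs this.1 k.p, ← this.2] at r
    rw [eq_inv_of_mul_eq_one_left r, inv_eq_of_mul_eq_one_left (ei_sq qs k.p)]
  · rw [e y hy, show (eich q s f).1 y + y = f + (polar q f y + q f) • s by rw [ei_ap qs k.p, hy]; v2,
      Q_add_smul_of_singular qs k.p]

variable (hs' : s' ∈ S)
include hs'

theorem perp (e : polar q s s' = 0) (k : Fp A s f) : polar q f s' = 0 := by
  by_contra n
  have n := z2_ne.1 n
  have e' : polar q s' s = 0 := by rw [polar_comm, e]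
  have qs := h.qs s hs
  have qs' := h.qs s' hs'
  have ne : ¬ (s = 0 ∨ s = s') := not_or.2 ⟨h.s0 s hs, fun r => by
    rw [← r, polar_comm, k.p] at n; exact zero_ne_one n⟩
  have cl : ∀ u, Fp A s' u → polar q u s = 0 → (u = 0 ∨ u = s') ∨ u + s = 0 ∨ u + s = s' := fun u ku r => by
    have := h.fix hs k (h.lN s' hs' ku.m) (by rw [ei_ap qs' ku.p, r, e']; simp)
    rw [ei_ap qs' ku.p, polar_comm q s' f, n] at this
    have z : ∀ c : ZMod 2, ∀ x : V, x = c • s' → x = 0 ∨ x = s' := fun c x e => by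
      rcases z2 c with rfl | rfl <;> simp [e]
    refine this.imp (fun r => z (polar q u f + q u) _ ?_) fun r => z (polar q u f + q u) _ ?_
    · rw [← vadd_eq_zero, ← vadd_self f]; nth_rewrite 3 [← r]; v2
    · rw [← vadd_eq_zero, ← vadd_self (f + s)]; nth_rewrite 2 [← r]; v2
  have ks : Fp A s' s := by
    obtain ⟨f1, k1, n1⟩ := h.ex1 hs'
    obtain ⟨f2, k2, n2, n3, -⟩ := h.two' hs' k1 n1
    obtain ⟨u, ku, nu, r⟩ : ∃ u, Fp A s' u ∧ ¬ (u = 0 ∨ u = s') ∧ polar q u s = 0 := by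
      rcases z2 (polar q f1 s) with r | r
      · exact ⟨_, k1, n1, r⟩
      rcases z2 (polar q f2 s) with r' | r'
      · exact ⟨_, k2, n2, r'⟩
      · exact ⟨_, h.add hs' k2 k1, n3, by rw [polar_add_left, r, r']; rfl⟩
    rcases (cl u ku r).resolve_left nu with r | r
    · exact vadd_eq_zero.1 r ▸ ku
    · simpa [← r, vadd_cancel] using h.add hs' ku (h.smul hs' 1)
  obtain ⟨u, ku, n1, n2, qu⟩ := h.two' hs' ks ne
  have r : polar q u s = 1 := z2_ne.1 fun r => (cl u ku r).elim n1 n2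
  obtain ⟨w, kw, n3, n4, qw⟩ := h.two' hs' (h.add hs' ku ks) n2
  rw [Q_add, qu, qs, r] at qw
  have z : ∀ x y : V, q y = 0 → polar q s' y = 0 → ¬ (q x = 0 + 0 + 1 ∧ (x + y = 0 ∨ x + y = s')) := by
    rintro x y a b ⟨c, r | r⟩
    · rw [vadd_eq_zero.1 r, a] at c; exact absurd c (by decide)
    · rw [← vadd_cancel' x y, r, Q_add, qs', a, b] at c; exact absurd c (by decide)
  rcases z2 (polar q w s) with r' | r'
  · exact z w s qs e' ⟨qw, (cl w kw r').resolve_left n3⟩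
  · rcases cl _ (h.add hs' kw ku) (by rw [polar_add_left, r, r']; rfl) with c | c
    exacts [z w u (qu.trans qs) ku.p ⟨qw, c⟩, n4 (add_assoc w u s ▸ c)]

theorem fixes (e : polar q s s' = 0) (k : Fp A s f) : (eich q s f).1 s' = s' := by
  rw [ei_ap (h.qs s hs) k.p, h.perp hs hs' e k, e]; simp

theorem comm (e : polar q s s' = 0) (ha : a ∈ A s) (hb : b ∈ A s') : Commute a b := by
  obtain ⟨f, k, rfl⟩ := h.ex hs ha
  exact h.key s' hs' _ (h.lN s hs ha) (h.fixes hs hs' e k) b hb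

omit hs' in
theorem opp (k : Fp A s f) (n : ¬ (f = 0 ∨ f = s)) : ∃ s' ∈ S, polar q s s' = 1 ∧ ∃ f', Fp A s' f' ∧
    polar q s f' = 0 ∧ q f' = q f ∧ ¬ (f' = 0 ∨ f' = s') ∧ (eich q s f * eich q s' f') ^ 4 ≠ 1 := by
  have qs := h.qs s hs
  have sq := ei_sq qs k.p
  have := mt (h.bs _ (h.mem hs k) sq) fun e => n (ei_eq_one h.nd qs (h.s0 s hs) k.p e)
  push Not at this
  obtain ⟨g, hg, r⟩ := this
  have hs' := h.cS s hs g hg
  have k' := h.conj hs k hg
  have sq' := ei_sq (h.qs _ hs') k'.p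
  rw [conj_eich] at r
  have e : polar q s (g.1 s) = 1 := z2_ne.1 fun e => r (by
    rw [(h.comm hs hs' e k.m k'.m).mul_pow, p4, p4, sq, sq']; simp)
  have e2 := eich_add_smul_self (h.qs _ hs') k'.p (polar q s (g.1 f))
  refine ⟨_, hs', e, _, h.add hs' k' (h.smul hs' (polar q s (g.1 f))),
    by rw [polar_add_right, polar_smul_right', e, mul_one, vadd_self],
    by rw [Q_add_smul_of_singular (h.qs _ hs') k'.p, O.map_Q g], fun c => r ?_, e2.symm ▸ r⟩
  rw [← e2, h.one hs' c, mul_one, p4, sq, one_mul]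

omit hs' in
theorem nsing (k : Fp A s f) (n : ¬ (f = 0 ∨ f = s)) : q f = 1 := z2_ne.1 fun qf => by
  obtain ⟨s', hs', e, f', k', e', qf', -, r⟩ := h.opp hs k n
  have qs' := h.qs s' hs'
  have m := h.mem hs' k'
  have sq' := ei_sq qs' k'.p
  have c := h.comm hs (h.cS s hs _ m) (by
    rw [ei_ap qs' k'.p, qf', qf, polar_comm q f' s, e']; simp [polar_add_right, polar_self2, e', -polar_self])
    k.m (h.cA s hs _ m _ k.m)
  refine r ?_
  rw [inv_eq_of_mul_eq_one_left sq'] at c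
  generalize eich q s' f' = b at *
  have sq := ei_sq (h.qs s hs) k.p
  generalize eich q s f = a at *
  rw [show (a * b) ^ 4 = (a * (b * a * b)) ^ 2 by simp [pow_succ, mul_assoc], c.mul_pow, pow_two, pow_two, sq]
  simp [mul_assoc, ← mul_assoc b b, sq', ← mul_assoc a a, sq]

omit hs' in
theorem false : False := by
  have qs := h.qs s hs
  have nrm : ∀ {s s' f}, s ∈ S → polar q s s' = 1 → Fp A s f → ¬ (f = 0 ∨ f = s) →
      ∃ u, Fp A s u ∧ ¬ (u = 0 ∨ u = s) ∧ polar q u s' = 0 ∧ ∃ c : ZMod 2, u = f + c • s := fun {s s' f} hs e k n =>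
    ⟨_, h.add hs k (h.smul hs (polar q f s')), fun r => n (by
      rcases z2 (polar q f s') with c | c <;> simpa [c, vadd_eq_zero, or_comm] using r),
      by rw [polar_add_left, polar_smul_left', e, mul_one, vadd_self], _, rfl⟩
  have pol : ∀ {f u}, Fp A s f → Fp A s u → ¬ (f = 0 ∨ f = s) → ¬ (u = 0 ∨ u = s) → ¬ (u + f = 0 ∨ u + f = s) →
      polar q u f = 1 := fun k k' n1 n2 n3 => by
    have := h.nsing hs (h.add hs k' k) n3
    rwa [Q_add, h.nsing hs k n1, h.nsing hs k' n2, vadd_self, zero_add] at this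
  obtain ⟨f1, k1, n1⟩ := h.ex1 hs
  obtain ⟨s', hs', e, f', k', e', -, n', -⟩ := h.opp hs k1 n1
  have qs' := h.qs s' hs'
  have qf' := h.nsing hs' k' n'
  have e1 : polar q s' s = 1 := by rw [polar_comm, e]
  obtain ⟨f, k, n, r1, r2⟩ : ∃ f, Fp A s f ∧ ¬ (f = 0 ∨ f = s) ∧ polar q f s' = 0 ∧ polar q f f' = 0 := by
    obtain ⟨f2, k2, n2, n3, -⟩ := h.two' hs k1 n1
    obtain ⟨u, ku, nu, r⟩ : ∃ u, Fp A s u ∧ ¬ (u = 0 ∨ u = s) ∧ polar q u f' = 0 := by
      rcases z2 (polar q f1 f') with r | r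
      · exact ⟨_, k1, n1, r⟩
      rcases z2 (polar q f2 f') with r' | r'
      · exact ⟨_, k2, n2, r'⟩
      · exact ⟨_, h.add hs k2 k1, n3, by rw [polar_add_left, r, r']; rfl⟩
    obtain ⟨w, kw, nw, r', c, rfl⟩ := nrm hs e ku nu
    exact ⟨_, kw, nw, r', by rw [polar_add_left, polar_smul_left', r, e', mul_zero, add_zero]⟩
  have qf := h.nsing hs k n
  obtain ⟨g, kg, ng, r3, ng'⟩ : ∃ g, Fp A s g ∧ ¬ (g = 0 ∨ g = s) ∧ polar q g s' = 0 ∧ ¬ (g + f = 0 ∨ g + f = s) := by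
    obtain ⟨u, ku, n1, n2, -⟩ := h.two' hs k n
    obtain ⟨w, kw, nw, r', c, rfl⟩ := nrm hs e ku n1
    refine ⟨_, kw, nw, r', fun r => n2 ?_⟩
    rw [add_right_comm] at r
    rcases z2 c with rfl | rfl <;> simpa [vadd_eq_zero, or_comm] using r
  have gf := pol k kg n ng ng'
  have mv : ∀ {f f'}, Fp A s f → Fp A s' f' → q f = 1 → q f' = 1 → polar q f s' = 0 → polar q s f' = 0 →
      polar q f f' = 0 → (eich q s' f' * eich q s f).1 s' = s + f + f' := fun {f f'} k k' a b c d r => by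
    rw [O.mul_apply, ei_ap qs k.p, ei_ap qs' k'.p]
    simp only [polar_add_right, polar_smul_right', polar_self2, polar_comm q f' s', polar_comm q s' f,
      polar_comm q f' s, polar_comm q f' f, k'.p, a, b, c, d, r, e, e1]
    v2
  have mN : ∀ {f f'}, Fp A s f → Fp A s' f' → eich q s' f' * eich q s f ∈ N := fun k k' =>
    mul_mem (h.lN s' hs' k'.m) (h.lN s hs k.m)
  have e2 := mv k k' qf qf' r1 e' r2
  by_cases ff : f' = f
  · subst ff
    rw [vadd_cancel'] at e2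
    have i1 := inv_eq_of_mul_eq_one_left (ei_sq qs k.p)
    have i2 := inv_eq_of_mul_eq_one_left (ei_sq qs' k'.p)
    have kg' := h.conj hs kg (inv_mem (h.le (mN k k')))
    rw [(O.inv_apply_eq _).2 e2.symm, mul_inv_rev, i1, i2, O.mul_apply, ei_ap qs' k'.p, ei_ap qs k.p] at kg'
    simp only [polar_add_right, polar_smul_right', polar_comm q f' g, polar_comm q s' g, gf, r3, r1, kg.p, e, qf] at kg'
    have kg2 : Fp A s' g := by
      convert h.add hs' (h.add hs' kg' k') (h.smul hs' 1) using 1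
      v2
    have qg := h.nsing hs kg ng
    have e3 := mv kg kg2 qg qg r3 kg.p (polar_self2 g)
    rw [vadd_cancel'] at e3
    have := h.fix hs k (mul_mem (mN kg kg2) (inv_mem (mN k k'))) (by
      rw [O.mul_apply, (O.inv_apply_eq _).2 e2.symm, e3])
    rw [O.mul_apply, (O.inv_apply_eq _ (v := f')).2 (by
      rw [O.mul_apply, ei_ap qs k.p, ei_ap qs' k'.p]; simp [polar_self2, k.p, k'.p, -polar_self]),
      O.mul_apply, ei_ap qs kg.p, ei_ap qs' kg2.p] at this
    simp only [polar_add_right, polar_smul_right', gf, k.p, k'.p, e1, polar_comm q g s, kg.p, qg] at this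
    refine ng (this.symm.imp (fun r => ?_) fun r => ?_)
    · rw [← vadd_self (f' + s)]; nth_rewrite 1 [← r]; v2
    · rw [← vadd_eq_zero, ← vadd_self f']; nth_rewrite 1 [← r]; v2
  have hv := e2 ▸ h.cS s' hs' _ (h.le (mN k k'))
  have kv := h.conj hs' k' (h.le (mN k k'))
  rw [e2, show (eich q s' f' * eich q s f).1 f' = f' by
    rw [O.mul_apply, ei_ap qs k.p, ei_ap qs' k'.p]; simp [polar_self2, r2, e', k'.p, -polar_self]] at kv
  have p : polar q s (s + f + f') = 0 := by simp [polar_add_right, polar_self2, k.p, e', -polar_self]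
  have p1 := h.perp hs hv p kg
  have := h.fix hs kg (h.lN _ hv kv.m) (h.fixes hv hs (by rw [polar_comm, p]) kv)
  rw [ei_ap (h.qs _ hv) kv.p, polar_comm q _ g, polar_comm q _ g, p1] at this
  rw [polar_add_right, polar_add_right, polar_comm q g s, kg.p, gf, zero_add, vadd_eq_zero] at p1
  rw [← p1] at this
  rcases this with r | r
  · exact h.s0 _ hv (by simpa using r)
  · exact ff (by rw [eq_comm, ← vadd_eq_zero]; simpa [add_assoc] using r)

end Fam

end Cfsg.Lib.RD
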