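import Cfsg.Agent.Lib.RD.A
import Cfsg.Agent.Lib.X7.TT

/-!
# The groups induced by the neighbours of a large extraspecial group
-/

set_option autoImplicit false

namespace Cfsg.Lib.RD

open QuadraticMap Cfsg.Lib.Orth Cfsg.Lib.U6 Cfsg.Lib.LX Module

variable {V : Type*} [AddCommGroup V] [Module (ZMod 2) V] {q : QuadraticForm (ZMod 2) V}
  {a b g k : O q} {s s' f u v w y : V} {Γ : Subgroup (O q)} {S : Set V} {A : V → Subgroup (O q)}
  {B : V → Submodule (ZMod 2) V} {W W' : Submodule (ZMod 2) V}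

theorem or_smul (h : v = 0 ∨ v = s) : ∃ c : ZMod 2, v = c • s := h.elim (fun e => ⟨0, by simp [e]⟩) fun e => ⟨1, by simp [e]⟩

theorem smul_or (c : ZMod 2) (s : V) : c • s = 0 ∨ c • s = s := by rcases z2 c with rfl | rfl <;> simp

theorem vmv (h : u + v = w) : u = v + w := by rw [← h, add_comm u, vadd_cancel]

/-- an invariant subspace -/
def Inv (Γ : Subgroup (O q)) (W : Submodule (ZMod 2) V) : Prop := ∀ g ∈ Γ, ∀ v ∈ W, g.1 v ∈ W

theorem Inv.perp (h : Inv Γ W) : Inv Γ (perp q W) := fun g hg v hv => mem_perp.2 fun w hw => by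
  rw [O.polar_right, mem_perp.1 hv _ (h _ (inv_mem hg) w hw)]

theorem Inv.inf (h : Inv Γ W) (h' : Inv Γ W') : Inv Γ (W ⊓ W') := fun g hg v hv => ⟨h g hg v hv.1, h' g hg v hv.2⟩

theorem Inv.mv (h : Inv Γ W) (hg : g ∈ Γ) (hv : v ∈ W) : g.1 v + v ∈ W := add_mem (h g hg v hv) hv

theorem Inv.not (h : Inv Γ W) (hg : g ∈ Γ) (hv : v ∉ W) : g.1 v ∉ W := fun e => hv (by simpa using h _ (inv_mem hg) _ e)

theorem Inv.cj (h : Inv Γ W) (hg : g ∈ Γ) (e : ∀ w ∈ W, k.1 w = w) : ∀ w ∈ W, (g * k * g⁻¹).1 w = w := fun w hw => by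
  rw [O.mul_apply, O.mul_apply, e _ (h _ (inv_mem hg) w hw), O.apply_inv_apply]

/-- The local data at the conjugates of `z` in `Q`. -/
structure Sys (Γ : Subgroup (O q)) (S : Set V) (A : V → Subgroup (O q)) (B : V → Submodule (ZMod 2) V) : Prop where
  nd : ND q
  s0 : ∀ s ∈ S, s ≠ 0
  cS : ∀ s ∈ S, ∀ g ∈ Γ, g.1 s ∈ S
  le : ∀ s ∈ S, A s ≤ Γ
  cA : ∀ s ∈ S, ∀ g ∈ Γ, ∀ a ∈ A s, g * a * g⁻¹ ∈ A (g.1 s)
  cB : ∀ s ∈ S, ∀ g ∈ Γ, ∀ v ∈ B s, g.1 v ∈ B (g.1 s)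
  sB : ∀ s ∈ S, s ∈ B s
  sing : ∀ s ∈ S, ∀ v ∈ B s, q v = 0
  sq : ∀ s ∈ S, ∀ a ∈ A s, a * a = 1
  cross : ∀ s ∈ S, ∀ a ∈ A s, ∀ v, polar q s v = 0 → a.1 v + v ∈ B s
  subc : ∀ s ∈ S, ∀ a ∈ A s, ∀ v ∈ B s, a.1 v + v = 0 ∨ a.1 v + v = s
  inj : ∀ s ∈ S, ∀ a ∈ A s, ∀ y, polar q s y = 1 → a.1 y + y ∈ B s → a = 1
  card : ∀ s ∈ S, Nat.card (A s) * Nat.card (B s) * 2 = Nat.card V
  bs : ∀ a ∈ Γ, a * a = 1 → (∀ g ∈ Γ, (a * (g * a * g⁻¹)) ^ 4 = 1) → a = 1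
  nf : ∀ v, (∀ g ∈ Γ, g.1 v = v) → v = 0

/-- `a` is the element of `A s` belonging to `v`. -/
structure Tw (A : V → Subgroup (O q)) (B : V → Submodule (ZMod 2) V) (s v : V) (a : O q) : Prop where
  m : a ∈ A s
  e : ∀ y, polar q s y = 1 → a.1 y + y + v ∈ B s

namespace Sys

variable (h : Sys Γ S A B) (hs : s ∈ S)
include h hs

theorem qs : q s = 0 := h.sing s hs s (h.sB s hs)
theorem pB (hu : u ∈ B s) (hv : v ∈ B s) : polar q u v = 0 := by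
  have := h.sing s hs _ (add_mem hu hv)
  rwa [Q_add, h.sing s hs u hu, h.sing s hs v hv, add_zero, zero_add] at this
theorem exy : ∃ y, polar q s y = 1 := let ⟨y, e⟩ := h.nd.exists_polar_ne (h.s0 s hs); ⟨y, z2_ne.1 e⟩
theorem fix (ha : a ∈ A s) : a.1 s = s := vadd_eq_zero.1 ((h.subc s hs a ha s (h.sB s hs)).resolve_right
  fun e => O.apply_ne_zero a (h.s0 s hs) (add_eq_right.1 e))
theorem inv (ha : a ∈ A s) : a⁻¹ = a := inv_eq_of_mul_eq_one_left (h.sq s hs a ha)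
theorem cm (ha : a ∈ A s) (hb : b ∈ A s) : a * b = b * a := by
  rw [← h.inv hs (mul_mem ha hb), mul_inv_rev, h.inv hs ha, h.inv hs hb]
theorem pf (ha : a ∈ A s) (y : V) : polar q s (a.1 y + y) = 0 := polar_fix a (h.fix hs ha) y
theorem mvB (hg : g ∈ Γ) (e : g.1 s = s) (hv : v ∈ B s) : g.1 v ∈ B s := e ▸ h.cB s hs g hg v hv
theorem pm (ha : a ∈ A s) (u v : V) : polar q (a.1 u + u) v = polar q u (a.1 v + v) := by rw [polar_move, h.inv hs ha]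

theorem tw_of (ha : a ∈ A s) (hy : polar q s y = 1) (e : a.1 y + y + v ∈ B s) : Tw A B s v a :=
  ⟨ha, fun x hx => by
    have := add_mem (h.cross s hs a ha (x + y) (by rw [polar_add_right, hx, hy]; rfl)) e
    rwa [map_add, show a.1 x + a.1 y + (x + y) + (a.1 y + y + v) = a.1 x + x + v by v2] at this⟩
theorem tw_self (ha : a ∈ A s) (hy : polar q s y = 1) : Tw A B s (a.1 y + y) a :=
  h.tw_of hs ha hy (by rw [vadd_self]; exact zero_mem _)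
theorem tw_perp (t : Tw A B s v a) : polar q s v = 0 := by
  obtain ⟨y, hy⟩ := h.exy hs
  have := h.pB hs (h.sB s hs) (t.e y hy)
  rwa [polar_add_right, h.pf hs t.m, zero_add] at this
theorem tw_mul (t : Tw A B s u a) (t' : Tw A B s v b) : Tw A B s (u + v) (a * b) :=
  ⟨mul_mem t.m t'.m, fun y hy => by
    have := add_mem (h.cross s hs a t.m _ (h.pf hs t'.m y)) (add_mem (t.e y hy) (t'.e y hy))
    rwa [map_add, show a.1 (b.1 y) + a.1 y + (b.1 y + y) + (a.1 y + y + u + (b.1 y + y + v)) =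
      a.1 (b.1 y) + y + (u + v) by v2] at this⟩
theorem tw_eq_one (t : Tw A B s v a) (hv : v ∈ B s) : a = 1 :=
  let ⟨y, hy⟩ := h.exy hs
  h.inj s hs a t.m y hy (vadd_cancel' (a.1 y + y) v ▸ add_mem (t.e y hy) hv)
theorem tw_mem (t : Tw A B s v 1) : v ∈ B s := by
  obtain ⟨y, hy⟩ := h.exy hs
  simpa [vadd_self] using t.e y hy
theorem tw_uniq (t : Tw A B s v a) (t' : Tw A B s v b) : a = b := by
  rw [← h.inv hs t'.m, eq_inv_iff_mul_eq_one]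
  exact h.tw_eq_one hs (h.tw_mul hs t t') ((vadd_self v).symm ▸ zero_mem _)
theorem tw_cj (t : Tw A B s v a) (hg : g ∈ Γ) : Tw A B (g.1 s) (g.1 v) (g * a * g⁻¹) :=
  ⟨h.cA s hs g hg a t.m, fun y hy => by
    simpa using h.cB s hs g hg _ (t.e ((g⁻¹).1 y) (by rwa [← O.polar_left]))⟩
theorem tw_cm (t : Tw A B s v a) (hg : g ∈ Γ) (e : g.1 s = s) (e' : g.1 v = v) : Commute g a := by
  have := h.tw_cj hs t hg
  rw [e, e'] at this
  exact mul_inv_eq_iff_eq_mul.1 (h.tw_uniq hs this t)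
theorem coef (ha : a ∈ A s) (hy : polar q s y = 1) (e : a.1 v + v = 0 ∨ a.1 v + v = s) :
    a.1 v = v + polar q (a.1 y + y) v • s := by
  obtain ⟨c, e⟩ := or_smul e
  rw [h.pm hs ha, e, polar_smul_right', polar_comm, hy, mul_one, vmv e]
theorem tw_B (t : Tw A B s v a) (hu : u ∈ B s) : a.1 u = u + polar q v u • s := by
  obtain ⟨y, hy⟩ := h.exy hs
  have := h.pB hs (t.e y hy) hu
  rw [polar_add_left, vadd_eq_zero] at this
  rw [h.coef hs t.m hy (h.subc s hs a t.m u hu), this]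
theorem tw_sym (t : Tw A B s v a) (t' : Tw A B s u b) : ∃ c : ZMod 2, a.1 u + u = b.1 v + v + c • s := by
  obtain ⟨y, hy⟩ := h.exy hs
  have e1 := h.tw_B hs t (t'.e y hy)
  have e2 := h.tw_B hs t' (t.e y hy)
  have e3 : a.1 (b.1 y) = b.1 (a.1 y) := by rw [← O.mul_apply, h.cm hs t.m t'.m, O.mul_apply]
  simp only [map_add, e3] at e1 e2
  refine ⟨polar q v (b.1 y + y + u) + polar q u (a.1 y + y + v), ?_⟩
  rw [vmv ((add_comm _ _).trans e1), vmv ((add_comm _ _).trans e2)]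
  v2
theorem tw_q (t : Tw A B s v a) (e : a.1 v = v) (hy : polar q s y = 1) : q (a.1 y + y) = q v := by
  have e1 := h.tw_B hs t (t.e y hy)
  rw [map_add, fix_comm (h.sq s hs a t.m), e, left_eq_add, smul_eq_zero_iff_left (h.s0 s hs)] at e1
  rw [← vadd_cancel' (a.1 y + y) v, Q_add, h.sing s hs _ (t.e y hy), polar_comm, e1, zero_add, add_zero]

variable [Finite V]

theorem tw_ex (hv : polar q s v = 0) : ∃ a, Tw A B s v a := by
  obtain ⟨y, hy⟩ := h.exy hs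
  have c := card_perp h.nd ((ZMod 2) ∙ s)
  rw [card_pow (_ ∙ s), finrank_span_singleton (h.s0 s hs), ← h.card s hs, ← Nat.card_prod] at c
  obtain ⟨p, e⟩ := (Function.Injective.bijective_of_nat_card_le (f := fun p : A s × B s =>
    (⟨p.1.1.1 y + y + p.2, mem_perp_singleton.2 (by rw [polar_add_right, h.pf hs p.1.2, h.pB hs (h.sB s hs) p.2.2,
      add_zero])⟩ : perp q ((ZMod 2) ∙ s))) (fun p p' e => by
        have e : p.1.1.1 y + y + p.2 = p'.1.1.1 y + y + p'.2 := congrArg Subtype.val e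
        have := h.tw_uniq hs (h.tw_self hs p'.1.2 hy) (h.tw_of hs p.1.2 hy (by
          convert add_mem p.2.2 p'.2.2 using 1; rw [vmv e]; v2))
        rw [this, add_right_inj] at e
        exact Prod.ext (Subtype.ext this.symm) (Subtype.ext e)) (by omega)).2 ⟨v, mem_perp_singleton.2 hv⟩
  exact ⟨_, h.tw_of hs p.1.2 hy (by rw [← show _ = v from congrArg Subtype.val e, vadd_cancel]; exact p.2.2)⟩

theorem exB (hu : u ∈ B s) (n : ¬ (u = 0 ∨ u = s)) : ∃ a ∈ A s, a.1 u = u + s := by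
  have := mt (X7.eq_of_perp h.nd) n
  push Not at this
  obtain ⟨v, hv, e⟩ := this
  obtain ⟨a, t⟩ := h.tw_ex hs hv
  exact ⟨a, t.m, by rw [h.tw_B hs t hu, z2_ne.1 e, one_smul]⟩

theorem nB (i : Inv Γ W) (n : s ∉ W) (hu : u ∈ W) (hu' : u ∈ B s) : u = 0 := by_contra fun e =>
  let ⟨a, ha, k⟩ := h.exB hs hu' (not_or.2 ⟨e, fun e => n (e ▸ hu)⟩)
  n (vadd_cancel u s ▸ k ▸ add_mem hu (i a (h.le s hs ha) u hu))

theorem fixW (i : Inv Γ W) (n : s ∉ W) (ha : a ∈ A s) (hu : u ∈ W) (e : polar q s u = 0) : a.1 u = u :=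
  vadd_eq_zero.1 (h.nB hs i n (i.mv (h.le s hs ha) hu) (h.cross s hs a ha u e))

omit hs [Finite V] in
/-- the elements of `A s` belonging to `W` -/
def AW (W : Submodule (ZMod 2) V) (s : V) : Subgroup (O q) where
  carrier := {a | s ∈ S → ∃ v ∈ W, Tw A B s v a}
  one_mem' _ := ⟨0, zero_mem _, one_mem _, fun y _ => by simp [vadd_self]⟩
  mul_mem' k k' hs := let ⟨_, a, t⟩ := k hs; let ⟨_, b, t'⟩ := k' hs; ⟨_, add_mem a b, h.tw_mul hs t t'⟩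
  inv_mem' k hs := let ⟨v, a, t⟩ := k hs; ⟨v, a, (h.inv hs t.m).symm ▸ t⟩

theorem caseA (i : Inv Γ W) (n : s ∉ W) (W0 : W ≠ ⊥) : ∃ y ∈ W, polar q s y = 1 := by
  by_contra! p
  obtain ⟨w, hw, w0⟩ := (Submodule.ne_bot_iff W).1 W0
  have ne : ∀ {s}, s ∈ S → s ∉ W → ∀ {v a}, v ∈ W → v ≠ 0 → Tw A B s v a → a ≠ 1 := fun hs n v a hv v0 t e =>
    v0 (h.nB hs i n hv (h.tw_mem hs (e ▸ t)))
  refine Fam.false (Γ := Γ) (N := Γ ⊓ fixer q W) (S := {s ∈ S | s ∉ W ∧ ∀ y ∈ W, polar q s y = 0}) (A := h.AW W)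
    ⟨h.nd, fun s k => h.qs k.1, fun s k => h.s0 s k.1, inf_le_left, fun s k g hg => ⟨h.cS s k.1 g hg, i.not hg k.2.1,
      fun y hy => by rw [O.polar_left, k.2.2 _ (i _ (inv_mem hg) y hy)]⟩, fun s k a ha => ?_, fun s k g hg a ha _ => ?_,
      fun s k a ha u hu => ?_, fun s k g hg e a ha => ?_, fun s k => ?_, fun s k a ha a1 => ?_, h.bs⟩
    ⟨hs, n, fun y hy => (z2 _).resolve_right (p y hy)⟩
  · obtain ⟨v, -, t⟩ := ha k.1
    exact ⟨h.le s k.1 t.m, mem_fixer.2 fun u hu => h.fixW k.1 i k.2.1 t.m hu (k.2.2 u hu)⟩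
  · obtain ⟨v, hv, t⟩ := ha k.1
    exact ⟨_, i g hg v hv, h.tw_cj k.1 t hg⟩
  · obtain ⟨v, hv, t⟩ := ha k.1
    obtain ⟨b, t'⟩ := h.tw_ex k.1 hu
    obtain ⟨c, e⟩ := h.tw_sym k.1 t t'
    rw [h.fixW k.1 i k.2.1 t'.m hv (k.2.2 v hv), vadd_self, zero_add] at e
    rw [vmv e]
    exact (smul_or c s).imp (fun e => by rw [e, add_zero]) fun e => by rw [e]
  · obtain ⟨v, hv, t⟩ := ha k.1
    exact h.tw_cm k.1 t hg.1 e (mem_fixer.1 hg.2 v hv)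
  · obtain ⟨a, t⟩ := h.tw_ex k.1 (k.2.2 w hw)
    exact ⟨a, fun _ => ⟨w, hw, t⟩, ne k.1 k.2.1 hw w0 t⟩
  · obtain ⟨v, hv, t⟩ := ha k.1
    have v0 : v ≠ 0 := fun e => a1 (h.tw_eq_one k.1 t (e ▸ zero_mem _))
    have := mt (h.nf v) v0
    push Not at this
    obtain ⟨g, hg, e⟩ := this
    have m := i g hg v hv
    obtain ⟨b, t'⟩ := h.tw_ex k.1 (k.2.2 _ m)
    refine ⟨b, fun _ => ⟨_, m, t'⟩, ne k.1 k.2.1 m (O.apply_ne_zero g v0) t', fun r => ?_, fun y hy => ?_⟩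
    · exact ne k.1 k.2.1 (add_mem m hv) (mt vadd_eq_zero.1 e) (h.tw_mul k.1 t' t) (r ▸ h.sq s k.1 b t'.m)
    · rw [h.tw_q k.1 t' (h.fixW k.1 i k.2.1 t'.m m (k.2.2 _ m)) hy, O.map_Q,
        h.tw_q k.1 t (h.fixW k.1 i k.2.1 t.m hv (k.2.2 _ hv)) hy]

end Sys

end Cfsg.Lib.RD
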