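import Cfsg.Agent.Lib.RD.B

/-!
# An invariant subspace missing a conjugate of `z`
-/

set_option autoImplicit false

namespace Cfsg.Lib.RD

open QuadraticMap Cfsg.Lib.Orth Cfsg.Lib.U6 Cfsg.Lib.LX Module

variable {V : Type*} [AddCommGroup V] [Module (ZMod 2) V] {q : QuadraticForm (ZMod 2) V}
  {a b g k : O q} {s s' f u v w y : V} {Γ : Subgroup (O q)} {S : Set V} {A : V → Subgroup (O q)}
  {B : V → Submodule (ZMod 2) V} {W W' T : Submodule (ZMod 2) V}

theorem ex_perp2 [Finite V] (h : 3 ≤ finrank (ZMod 2) W) (u v : V) :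
    ∃ f ∈ W, f ≠ 0 ∧ polar q u f = 0 ∧ polar q v f = 0 := by
  obtain ⟨f, e, f0⟩ := (Submodule.ne_bot_iff _).1 (LinearMap.ker_ne_bot_of_finrank_lt
    (f := ((polarBilin q u).prod (polarBilin q v)).comp W.subtype) (by simp; omega))
  exact ⟨f, f.2, fun e => f0 (Subtype.ext e), congrArg Prod.fst e, congrArg Prod.snd e⟩

theorem two_mul_le [Finite V] (nd : ND q) (h : ∀ u ∈ W, ∀ v ∈ W, polar q u v = 0) :
    2 * finrank (ZMod 2) W ≤ finrank (ZMod 2) V := by
  have := finrank_add_finrank_perp nd W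
  have := Submodule.finrank_mono (show W ≤ perp q W from fun v hv => mem_perp.2 fun u hu => h u hu v hv)
  omega

/-- a subspace given by its non-zero vectors -/
def sub0 (X : Set V) (h : ∀ u ∈ X, ∀ v ∈ X, u ≠ v → u + v ∈ X) : Submodule (ZMod 2) V where
  carrier := {v | v = 0 ∨ v ∈ X}
  zero_mem' := .inl rfl
  add_mem' := by
    rintro u v (rfl | a) (rfl | b)
    · simp
    · simp [b]
    · simp [a]
    · exact (em (u = v)).imp vadd_eq_zero.2 (h u a v b)
  smul_mem' c v hv := (smul_or c v).elim .inl fun e => e.symm ▸ hv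

/-- `V` is the sum of two dual invariant subspaces on which all transvections are induced. -/
structure Split (Γ : Subgroup (O q)) (W T : Submodule (ZMod 2) V) : Prop where
  iW : Inv Γ W
  iT : Inv Γ T
  qW : ∀ w ∈ W, q w = 0
  qT : ∀ w ∈ T, q w = 0
  sum : ∀ v, ∃ w ∈ W, ∃ t ∈ T, v = w + t
  ker : ∀ k ∈ Γ, (∀ w ∈ W, k.1 w = w) → k = 1
  tv : ∀ x ∈ W, ∀ y ∈ T, polar q x y = 0 → ∃ g ∈ Γ, ∀ v ∈ W, g.1 v = v + polar q v y • x

namespace Sys

variable [Finite V] (h : Sys Γ S A B)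
include h

theorem ker (i : Inv Γ W) (p : perp q W ≤ W) (hk : k ∈ Γ) (e : ∀ w ∈ W, k.1 w = w) : k = 1 := by
  have sq : ∀ k : O q, (∀ w ∈ W, k.1 w = w) → k * k = 1 := fun k e => O.ext fun v => by
    have := e _ (p (mem_perp.2 fun w hw => polar_fix k (e w hw) v))
    rwa [map_add, add_comm, add_right_inj] at this
  exact h.bs k hk (sq k e) fun g hg => by
    rw [p4, sq (k * (g * k * g⁻¹)) fun w hw => by rw [O.mul_apply, i.cj hg e w hw, e w hw], one_mul]

variable (hs : s ∈ S) (i : Inv Γ W) (n : s ∉ W) (W0 : W ≠ ⊥)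
include hs i n W0

theorem dec (v : V) : ∃ w ∈ W, ∃ b ∈ B s, v = w + b := by
  obtain ⟨y, hy, e⟩ := h.caseA hs i n W0
  have k : ∀ v, polar q s v = 0 → ∃ w ∈ W, ∃ b ∈ B s, v = w + b := fun v hv =>
    let ⟨a, t⟩ := h.tw_ex hs hv
    ⟨_, i.mv (h.le s hs t.m) hy, _, t.e y e, (vadd_cancel _ _).symm⟩
  rcases z2 (polar q s v) with r | r
  · exact k v r
  obtain ⟨w, hw, b, hb, r⟩ := k (v + y) (by rw [polar_add_right, r, e]; rfl)
  exact ⟨y + w, add_mem hy hw, b, hb, by rw [vmv r, add_assoc]⟩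

omit W0 in
theorem min (i' : Inv Γ W') (le : W' ≤ W) (W0 : W' ≠ ⊥) : W ≤ W' := fun v hv => by
  obtain ⟨w, hw, b, hb, rfl⟩ := h.dec hs i' (fun e => n (le e)) W0 v
  rwa [h.nB hs i n ((add_mem_cancel_left (le hw)).1 hv) hb, add_zero]

theorem exE (hf : f ∈ W) (e : polar q s f = 0) : eich q s f ∈ A s := by
  obtain ⟨y, hy, r⟩ := h.caseA hs i n W0
  obtain ⟨a, t⟩ := h.tw_ex hs e
  have := (eq_ei (h.qs hs) (h.s0 s hs) (a := a) (fun v hv => ?_) r).2
  · rw [vadd_eq_zero.1 (h.nB hs i n (add_mem (i.mv (h.le s hs t.m) hy) hf) (t.e y r))] at this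
    exact this ▸ t.m
  obtain ⟨w, hw, b, hb, rfl⟩ := h.dec hs i n W0 v
  rw [polar_add_right, h.pB hs (h.sB s hs) hb, add_zero] at hv
  rw [map_add, h.fixW hs i n t.m hw hv, h.tw_B hs t hb, ← add_assoc]
  exact (smul_or _ s).imp (fun e => by rw [e, add_zero]) fun e => by rw [e]

variable (h6 : 6 ≤ finrank (ZMod 2) V)
include h6

theorem three : 3 ≤ finrank (ZMod 2) W := by
  have := two_mul_le h.nd fun u hu v hv => h.pB hs hu hv
  have := Submodule.finrank_add_le_finrank_add_finrank W (B s)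
  rw [(eq_top_iff (a := W ⊔ B s)).2 fun v _ => let ⟨w, a, b, c, e⟩ := h.dec hs i n W0 v; Submodule.mem_sup.2 ⟨w, a, b, c, e.symm⟩,
    finrank_top] at this
  omega

theorem iso (hu : u ∈ W) (hv : v ∈ W) : polar q u v = 0 := by
  obtain ⟨y, hy, r⟩ := h.caseA hs i n W0
  obtain ⟨f, hf, f0, e1, e2⟩ := ex_perp2 (q := q) (h.three hs i n W0 h6) s y
  have k : ∀ u ∈ W, polar q s u = 0 → polar q u f = 0 := fun u hu e => by
    have := h.fixW hs i n (h.exE hs i n W0 hf e1) hu e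
    rw [ei_ap (h.qs hs) e1, e] at this
    simpa [h.s0 s hs, polar_comm q u f] using this
  refine mem_perp.1 (h.min hs i n (i.inf i.perp) inf_le_left ((Submodule.ne_bot_iff _).2
    ⟨f, ⟨hf, mem_perp.2 fun w hw => ?_⟩, f0⟩) hv).2 u hu
  rcases z2 (polar q s w) with e | e
  · exact k w hw e
  · simpa [e2] using k _ (add_mem hw hy) (by rw [polar_add_right, e, r]; rfl)

theorem ts (hu : u ∈ W) : q u = 0 := by
  obtain ⟨y, hy, r⟩ := h.caseA hs i n W0
  obtain ⟨f, hf, f0, e1, -⟩ := ex_perp2 (q := q) (h.three hs i n W0 h6) s y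
  let X : Submodule (ZMod 2) V :=
    { carrier := {v | v ∈ W ∧ q v = 0}
      zero_mem' := ⟨zero_mem _, map_zero _⟩
      add_mem' := fun a b => ⟨add_mem a.1 b.1, by rw [Q_add, a.2, b.2, h.iso hs i n W0 h6 a.1 b.1]; rfl⟩
      smul_mem' := fun c v a => ⟨W.smul_mem c a.1, by rw [q_smul2, a.2, mul_zero]⟩ }
  refine (h.min hs i n (W' := X) (fun g hg v hv => ⟨i g hg v hv.1, (O.map_Q g v).trans hv.2⟩) (fun v hv => hv.1)
    ((Submodule.ne_bot_iff _).2 ⟨f, ⟨hf, by_contra fun e => n ?_⟩, f0⟩) hu).2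
  have := i.mv (h.le s hs (h.exE hs i n W0 hf e1)) hy
  rw [ei_ap (h.qs hs) e1, r, z2_ne.1 e, h.iso hs i n W0 h6 hf hy] at this
  convert add_mem this hf using 1
  v2

omit h6 in
theorem perp_le (iso : ∀ u ∈ W, ∀ v ∈ W, polar q u v = 0) : perp q W ≤ W := fun v hv => by
  obtain ⟨y, hy, r⟩ := h.caseA hs i n W0
  obtain ⟨w, hw, b, hb, rfl⟩ := h.dec hs i n W0 v
  rwa [h.nB hs i.perp (fun e => by rw [mem_perp'.1 e y hy] at r; exact zero_ne_one r)
    ((add_mem_cancel_left (mem_perp.2 fun u hu => iso u hu w hw)).1 hv) hb, add_zero]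

theorem eq_of (hs' : s' ∈ S) (e : s + s' ∈ W) : s = s' := by
  have iso := fun u hu v hv => h.iso hs i n W0 h6 (u := u) (v := v) hu hv
  have n' : s' ∉ W := fun k => n ((add_mem_cancel_right k).1 e)
  by_contra ne
  obtain ⟨u, hu⟩ := h.nd.exists_polar_ne (mt vadd_eq_zero.1 ne)
  obtain ⟨f, hf, f0, e1, e2⟩ := ex_perp2 (q := q) (h.three hs i n W0 h6) s u
  have p : ∀ w ∈ W, polar q s' w = polar q s w := fun w hw => by
    rw [eq_comm, ← vadd_eq_zero, ← polar_add_left, iso _ e _ hw]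
  have e1' := (p f hf).trans e1
  have qf := h.ts hs i n W0 h6 hf
  have := h.ker i (h.perp_le hs i n W0 iso) (mul_mem (h.le s hs (h.exE hs i n W0 hf e1))
    (h.le s' hs' (h.exE hs' i n' W0 hf e1'))) fun w hw => by
      simp [ei_ap (h.qs hs) e1, ei_ap (h.qs hs') e1', iso f hf w hw, qf, p w hw, e1, polar_self2, vadd_cancel',
        -polar_self]
  obtain ⟨v, hv⟩ := h.nd.exists_polar_ne f0
  have := congrArg (fun g : O q => polar q (g.1 v) u) (eq_inv_of_mul_eq_one_left this)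
  simp only [inv_eq_of_mul_eq_one_left (ei_sq (h.qs hs') e1'), ei_ap (h.qs hs) e1, ei_ap (h.qs hs') e1', qf,
    z2_ne.1 hv, polar_add_left, polar_smul_left', polar_comm q f u, e2] at this
  rw [polar_add_left] at hu
  grind

theorem add_mem_S (hs' : s' ∈ S) (n' : s' ∉ W) (ne : s ≠ s') : s + s' ∈ S := by
  have iso := fun u hu v hv => h.iso hs i n W0 h6 (u := u) (v := v) hu hv
  have key : ∀ {s s' f}, s ∈ S → s ∉ W → s' ∈ S → s' ∉ W → f ∈ W → polar q s f = 0 → polar q s' f = 1 →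
      s + s' ∈ S := fun {s s' f} hs n hs' n' hf e1 e2 => by
    have k : ∀ f ∈ W, polar q s f = 0 → polar q s' f = 1 → s + s' + polar q s s' • f ∈ S := fun f hf e1 e2 => by
      convert h.cS s' hs' _ (h.le s hs (h.exE hs i n W0 hf e1)) using 1
      rw [ei_ap (h.qs hs) e1, h.ts hs i n W0 h6 hf, polar_comm q f, e2]; v2
    rcases z2 (polar q s s') with r | r
    · simpa [r] using k f hf e1 e2
    obtain ⟨u, hu, u0, e3, e4⟩ := ex_perp2 (q := q) (h.three hs i n W0 h6) s s'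
    have := h.eq_of (k f hf e1 e2) i (fun m => ?_) W0 h6 (k _ (add_mem hf hu) (by rw [polar_add_right, e1, e3]; rfl)
      (by rw [polar_add_right, e2, e4]; rfl)) (by convert hu using 1; rw [r]; v2)
    · exact (u0 (by simpa [r] using this)).elim
    · have := iso _ m f hf
      simp [e1, e2, polar_self2, -polar_self] at this
  have := mt (fun e => h.eq_of hs i n W0 h6 hs' (h.perp_le hs i n W0 iso (mem_perp'.2 e))) ne
  push Not at this
  obtain ⟨f, hf, e⟩ := this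
  rw [polar_add_left] at e
  rcases z2 (polar q s f) with r | r
  · exact key hs n hs' n' hf r (by simpa [r, z2_ne] using e)
  · exact add_comm s' s ▸ key hs' n' hs n hf ((z2 _).resolve_right fun k => e (by rw [r, k]; rfl)) r

theorem split : ∃ T, Split Γ W T := by
  have iso := fun u hu v hv => h.iso hs i n W0 h6 (u := u) (v := v) hu hv
  have pl := h.perp_le hs i n W0 iso
  let T := sub0 {s ∈ S | s ∉ W} fun u a v b e => ⟨h.add_mem_S a.1 i a.2 W0 h6 b.1 b.2 e,
    fun k => e (h.eq_of a.1 i a.2 W0 h6 b.1 k)⟩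
  have iT : Inv Γ T := fun g hg v hv => hv.imp (fun e => by rw [e, map_zero]) fun e => ⟨h.cS v e.1 g hg, i.not hg e.2⟩
  refine ⟨T, i, iT, fun w => h.ts hs i n W0 h6, fun w hw => hw.elim (· ▸ map_zero _) fun e => h.qs e.1, fun v => ?_,
    fun k => h.ker i pl, fun x hx y hy e => ?_⟩
  · have : W ⊓ perp q T = ⊥ := by_contra fun e => by
      obtain ⟨y, hy, r⟩ := h.caseA hs i n W0
      rw [mem_perp.1 (h.min hs i n (i.inf iT.perp) inf_le_left e hy).2 s (.inr ⟨hs, n⟩)] at r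
      exact zero_ne_one r
    have : W ⊔ T = ⊤ := perp_inj h.nd (by
      rw [perp_top h.nd, perp_sup, eq_bot_iff, ← this]; exact inf_le_inf_right _ pl)
    obtain ⟨w, a, t, b, e⟩ := Submodule.mem_sup.1 (this.ge (Submodule.mem_top (x := v)))
    exact ⟨w, a, t, b, e.symm⟩
  rcases hy with rfl | hy
  · exact ⟨1, one_mem _, by simp⟩
  rw [polar_comm] at e
  exact ⟨_, h.le y hy.1 (h.exE hy.1 i hy.2 W0 hx e), fun v hv => by
    simp [ei_ap (h.qs hy.1) e, iso x hx v hv, h.ts hs i n W0 h6 hx, polar_comm q v y]⟩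

end Sys

end Cfsg.Lib.RD
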