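import Cfsg.Agent.Lib.RD.C

/-!
# Pairwise commuting conjugates of `z` in `Q`
-/

set_option autoImplicit false

namespace Cfsg.Lib.RD

open QuadraticMap Cfsg.Lib.Orth Cfsg.Lib.U6 Cfsg.Lib.LX Module

variable {V : Type*} [AddCommGroup V] [Module (ZMod 2) V] {q : QuadraticForm (ZMod 2) V}
  {a b g k : O q} {s s' f u v w x y : V} {Γ : Subgroup (O q)} {S : Set V} {A : V → Subgroup (O q)}
  {B : V → Submodule (ZMod 2) V} {W : Submodule (ZMod 2) V}

/-- An invariant isotropic subspace containing `S`. -/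
structure Ob (Γ : Subgroup (O q)) (S : Set V) (A : V → Subgroup (O q)) (B : V → Submodule (ZMod 2) V)
    (W : Submodule (ZMod 2) V) : Prop extends Sys Γ S A B where
  i : Inv Γ W
  iso : ∀ u ∈ W, ∀ v ∈ W, polar q u v = 0
  sw : ∀ s ∈ S, s ∈ W

namespace Ob

variable (h : Ob Γ S A B W)
include h

theorem fa (hk : k ∈ Γ) (k2 : k * k = 1) (e : ∀ w ∈ W, k.1 w = w) (e' : ∀ u ∈ perp q W, k.1 u + u ∈ W) : k = 1 :=
  h.bs k hk k2 fun g hg => by
    have f1 : ∀ w ∈ W, (k * (g * k * g⁻¹)).1 w = w := fun w hw => by rw [O.mul_apply, h.i.cj hg e w hw, e w hw]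
    have f2 : ∀ u ∈ perp q W, (k * (g * k * g⁻¹)).1 u + u ∈ W := fun u hu => by
      simpa [add_assoc, vadd_cancel] using
        add_mem (h.i k hk _ (h.i g hg _ (e' _ (h.i.perp _ (inv_mem hg) u hu)))) (e' u hu)
    generalize k * (g * k * g⁻¹) = c at *
    refine O.ext fun v => ?_
    have m := f2 _ (mem_perp.2 fun w hw => polar_fix c (f1 w hw) v)
    rw [map_add, add_assoc, vadd_cancel] at m
    have := (congrArg c.1 (f1 _ m)).trans (f1 _ m)
    rwa [map_add, map_add, add_comm, add_right_inj, p4] at *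

variable [Finite V] (hs : s ∈ S)
include hs

theorem twW (t : Tw A B s v a) (hv : v ∈ W) (hu : polar q s u = 0) : a.1 u + u ∈ W := by
  obtain ⟨b, t'⟩ := h.tw_ex hs hu
  obtain ⟨c, e⟩ := h.tw_sym hs t t'
  exact e ▸ add_mem (h.i.mv (h.le s hs t'.m) hv) (W.smul_mem c (h.sw s hs))

omit hs in
theorem cen (ha : a⁻¹ = a) (e : ∀ u, polar q s u = 0 → a.1 u + u ∈ W) (hw : w ∈ W) : a.1 w + w = 0 ∨ a.1 w + w = s :=
  X7.eq_of_perp h.nd fun u hu => by rw [← h.iso _ (e u hu) w hw, polar_move, ha]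

theorem all (hu : ∀ b ∈ W, b ∈ B s → polar q u b = 0) :
    ∃ v ∈ W, ∃ a, Tw A B s v a ∧ ∀ w ∈ W, a.1 w = w + polar q u w • s := by
  obtain ⟨y, hy⟩ := h.exy hs
  choose τ t using fun v : W => h.tw_ex hs (h.iso s (h.sw s hs) v v.2)
  have act : ∀ v, ∀ w ∈ W, (τ v).1 w = w + polar q ((τ v).1 y + y) w • s := fun v w hw =>
    h.coef hs (t v).m hy (h.cen (h.inv hs (t v).m) (fun _ => h.twW hs (t v) v.2) hw)
  let Φ : W →ₗ[ZMod 2] Dual (ZMod 2) W := AddMonoidHom.toZModLinearMap 2 (AddMonoidHom.mk'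
    (fun v => (polarBilin q ((τ v).1 y + y)).comp W.subtype) fun u v => LinearMap.ext fun w => by
      have := h.iso _ (h.twW hs (t u) u.2 (h.pf hs (t v).m y)) w w.2
      rw [h.tw_uniq hs (t (u + v)) (h.tw_mul hs (t u) (t v))]
      simp only [map_add, polar_add_left, O.mul_apply, LinearMap.add_apply, LinearMap.comp_apply,
        polarBilin_apply_apply, Submodule.subtype_apply] at this ⊢
      grind)
  have e1 : LinearMap.ker Φ ≤ (B s).comap W.subtype := fun v hv => h.tw_mem hs (h.fa (h.le s hs (t v).m)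
    (h.sq s hs _ (t v).m) (fun w hw => by
      rw [act v w hw, show polar q _ w = 0 from LinearMap.congr_fun hv ⟨w, hw⟩, zero_smul, add_zero])
    (fun u hu => h.twW hs (t v) v.2 (mem_perp.1 hu s (h.sw s hs))) ▸ t v)
  have e2 : LinearMap.range Φ ≤ ((B s).comap W.subtype).dualAnnihilator := by
    rintro _ ⟨v, rfl⟩
    refine (Submodule.mem_dualAnnihilator _).2 fun w hw => ?_
    have := h.pB hs ((t v).e y hy) hw
    rwa [polar_add_left, Submodule.subtype_apply, h.iso _ v.2 _ w.2, add_zero] at this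
  have e3 := Φ.finrank_range_add_finrank_ker
  have e4 := Subspace.finrank_add_finrank_dualAnnihilator_eq ((B s).comap W.subtype)
  have e5 := Submodule.finrank_mono e1
  obtain ⟨v, e⟩ := (Submodule.eq_of_le_of_finrank_le e2 (by omega)).ge
    ((Submodule.mem_dualAnnihilator ((polarBilin q u).comp W.subtype)).2 fun w hw => hu w w.2 hw)
  exact ⟨v, v.2, _, t v, fun w hw => by rw [act v w hw, show polar q _ w = polar q u w from LinearMap.congr_fun e ⟨w, hw⟩]⟩

theorem all' (n : x ∉ B s) : ∃ u, polar q u x = 1 ∧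
    ∃ v ∈ W, ∃ a, Tw A B s v a ∧ ∀ w ∈ W, a.1 w = w + polar q u w • s :=
  let ⟨u, hu, e⟩ := exists_perp_polar_eq h.nd n 1
  ⟨u, (polar_comm ..).trans e, h.all hs fun b _ => mem_perp'.1 hu b⟩

theorem closed (hs' : s' ∈ S) (ne : s ≠ s') : s + s' ∈ S := by
  by_cases e : s ∈ B s'
  · obtain ⟨a, ha, e⟩ := h.exB hs' e (not_or.2 ⟨h.s0 s hs, ne⟩)
    exact e ▸ h.cS s hs a (h.le s' hs' ha)
  obtain ⟨u, e, v, -, a, t, k⟩ := h.all' hs' e
  simpa [k s (h.sw s hs), e] using h.cS s hs a (h.le s' hs' t.m)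

theorem perp_le (e : ∀ s ∈ S, W ≤ B s) : perp q W ≤ W := by
  have fx : ∀ {s v a}, s ∈ S → v ∈ perp q W → Tw A B s v a → ∀ w ∈ W, a.1 w = w := fun {s v a} hs hv t w hw => by
    rw [h.tw_B hs t (e s hs hw), mem_perp'.1 hv w hw, zero_smul, add_zero]
  have k : perp q W ≤ B s := fun v hv => by
    obtain ⟨a, t⟩ := h.tw_ex hs (mem_perp.1 hv s (h.sw s hs))
    refine h.tw_mem hs (h.bs a (h.le s hs t.m) (h.sq s hs a t.m) (fun g hg => ?_) ▸ t)
    have t' := h.tw_cj hs t hg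
    have hs' := h.cS s hs g hg
    have := h.cA s hs _ (h.le _ hs' t'.m) a t.m
    rw [fx hs' (h.i.perp g hg v hv) t' s (h.sw s hs), h.inv hs' t'.m] at this
    have := h.sq s hs _ (mul_mem t.m this)
    rw [p4, ← this]
    simp only [mul_assoc]
  exact fun v hv => perp_perp h.nd W ▸ mem_perp.2 fun u hu => h.pB hs (k hu) (k hv)

variable (ws : ∀ w ∈ W, w = 0 ∨ w ∈ S) (tr : ∀ s ∈ S, ∀ s' ∈ S, ∀ u ∈ S, u ∈ B s → u ∈ B s' → s' ∈ B s)
include ws tr

theorem le_B (h8 : 256 ≤ Nat.card V) : W ≤ B s := by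
  intro x0 hx0
  by_contra n0
  have sy : ∀ {s s'}, s ∈ S → s' ∈ S → s ∈ B s' → s' ∈ B s := fun {s s'} a b => tr s a s' b s a (h.sB s a)
  have s1 : ∀ σ ∈ S, ∃ x ∈ S, x ∉ B σ := fun σ hσ => by
    by_contra! k
    have m := (ws x0 hx0).resolve_left fun e => n0 (e ▸ zero_mem _)
    exact n0 (tr s hs x0 m σ hσ (sy hs hσ (k s hs)) (sy m hσ (k x0 m)))
  clear n0 hx0
  have s2 : ∀ s ∈ S, ∀ b ∈ W, b ∈ B s → b = 0 ∨ b = s := fun s hs b hb hb' => by
    obtain ⟨x, hx, n⟩ := s1 s hs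
    obtain ⟨u, e, v, -, a, t, k⟩ := h.all' hx (mt (sy hs hx) n)
    have z : ∀ b ∈ W, b ∈ B s → polar q u b = 0 → b = 0 := fun b hb hb' r => (ws b hb).resolve_right fun m => by
      have := h.mvB m (h.le x hx t.m) (by rw [k b hb, r, zero_smul, add_zero]) (sy m hs hb')
      rw [k s (h.sw s hs), e, one_smul, add_mem_cancel_left (sy m hs hb')] at this
      exact n (tr s hs x hx b m hb' (sy hx m this))
    refine (z2 (polar q u b)).imp (z b hb hb') fun r => vadd_eq_zero.1 (z _ (add_mem hb (h.sw s hs))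
      (add_mem hb' (h.sB s hs)) (by rw [polar_add_right, r, e]; rfl))
  have s3 : ∀ s ∈ S, ∀ k ∈ A s, (∀ w ∈ W, k.1 w = w) → k = 1 := by
    have l : ∀ s ∈ S, ∀ σ ∈ S, ∀ k ∈ A s, (∀ w ∈ W, k.1 w = w) → k ∈ A σ := fun s hs σ hσ k hk e => by
      by_cases r : s = σ
      · exact r ▸ hk
      have m := h.closed hs hσ r
      obtain ⟨u, e', v, hv, a, t, k'⟩ := h.all' m (x := s) fun c =>
        (s2 _ m s (h.sw s hs) c).elim (h.s0 s hs) fun c => h.s0 σ hσ (left_eq_add.1 c)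
      have := h.cA s hs a (h.le _ m t.m) k hk
      rwa [k' s (h.sw s hs), e', one_smul, vadd_cancel,
        ← (h.tw_cm m t (h.le s hs hk) (e _ (h.sw _ m)) (e v hv)).eq, mul_inv_cancel_right] at this
    exact fun s hs k hk e => h.bs k (h.le s hs hk) (h.sq s hs k hk) fun g hg => by
      rw [p4, h.sq s hs _ (mul_mem hk (l _ (h.cS s hs g hg) s hs _ (h.cA s hs g hg k hk) (h.i.cj hg e))), one_mul]
  have s4 : ∀ s ∈ S, ∀ a ∈ A s, ∀ w ∈ W, a.1 w + w = 0 ∨ a.1 w + w = s := fun s hs a ha w hw =>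
    s2 s hs _ (h.i.mv (h.le s hs ha) hw) (h.cross s hs a ha w (h.iso s (h.sw s hs) w hw))
  have s5 : ∀ s ∈ S, ∀ v, polar q s v = 0 → ∃ w ∈ W, v + w ∈ B s := fun s hs v hv => by
    obtain ⟨y, hy⟩ := h.exy hs
    obtain ⟨a, t⟩ := h.tw_ex hs hv
    obtain ⟨w, hw, b, t', k⟩ := h.all hs (u := a.1 y + y) fun b c d => (s2 s hs b c d).elim
      (fun e => e ▸ polar_zero_right ..) fun e => by rw [e, polar_comm, h.pf hs t.m]
    refine ⟨w, hw, h.tw_mem hs (s3 s hs _ (mul_mem t.m t'.m) (fun x hx => ?_) ▸ h.tw_mul hs t t')⟩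
    rw [O.mul_apply, k x hx, ← h.coef hs t.m hy (s4 s hs a t.m x hx), ← O.mul_apply, h.sq s hs a t.m, O.one_apply]
  have s6 : ∀ s ∈ S, ∀ a ∈ A s, ∀ v, polar q s v = 0 → a.1 v + v = 0 ∨ a.1 v + v = s := fun s hs a ha v hv => by
    obtain ⟨w, hw, e⟩ := s5 s hs v hv
    obtain ⟨c, e1⟩ := or_smul (s4 s hs a ha w hw)
    obtain ⟨d, e2⟩ := or_smul (h.subc s hs a ha _ e)
    rw [map_add, vmv e1] at e2
    rw [show a.1 v + v = (c + d) • s by rw [vmv (vmv e2)]; v2]
    exact smul_or _ s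
  obtain ⟨s', hs', n⟩ := s1 s hs
  have m' := h.sw s' hs'
  obtain ⟨b0, hb, e1⟩ : ∃ b ∈ B s, polar q s' b = 1 := by
    by_contra! k
    refine (X7.eq_of_perp h.nd (w := s) fun v hv => ?_).elim (h.s0 s' hs') fun e => n (e ▸ h.sB s hs)
    obtain ⟨w, hw, e⟩ := s5 s hs v hv
    have := (z2 _).resolve_right (k _ e)
    rwa [polar_add_right, h.iso _ m' w hw, add_zero, polar_comm] at this
  obtain ⟨u, e2, v, -, a, t, k⟩ := h.all' hs n
  obtain ⟨y, hy⟩ := h.exy hs
  have e3 := h.coef hs t.m hy (s4 s hs a t.m s' m')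
  rw [k s' m', e2, add_right_inj, (smul_left_injective _ (h.s0 s hs)).eq_iff] at e3
  have ea := eq_ei (h.qs hs) (h.s0 s hs) (fun v hv => (s6 s hs a t.m v hv).imp vadd_eq_zero.1 vmv) hy
  have t0 := h.tw_self hs t.m hy
  generalize a.1 y + y = f at *
  have pe : polar q s' (b0 + f) = 0 := by rw [polar_add_right, e1, polar_comm, ← e3]; rfl
  have one : ∀ c ∈ A s', c.1 s = s → c.1 (b0 + f) = b0 + f → c = 1 := fun c hc r1 r2 => by
    have m := h.le s' hs' hc
    have r3 : c.1 b0 + b0 = c.1 f + f := by rw [vmv ((map_add ..).symm.trans r2)]; v2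
    have := h.tw_cj hs t0 m
    rw [r1] at this
    have := h.tw_eq_one hs (h.tw_mul hs this t0) (r3 ▸ add_mem (h.mvB hs m r1 hb) hb)
    rw [mul_eq_one_iff_eq_inv, h.inv hs t.m, mul_inv_eq_iff_eq_mul, ea.2] at this
    have : c.1 b0 + b0 ∈ W := r3 ▸ (ei_fix h.nd (h.qs hs) (h.s0 s hs) ea.1 r1 this).elim
      (fun e => by rw [e, vadd_self]; exact zero_mem _) fun e => by
        rw [e, add_comm, vadd_cancel]; exact h.sw s hs
    exact s3 s' hs' c hc fun w hw => by rw [h.coef hs' hc e1 (s4 s' hs' c hc w hw), h.iso _ this w hw, zero_smul, add_zero]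
  have c4 := Nat.card_le_card_of_injective (fun c : A s' => (polar q (c.1.1 b0 + b0) s, polar q (c.1.1 b0 + b0) (b0 + f)))
    fun c d e => by
      have z : ∀ v, polar q s' v = 0 → polar q (c.1.1 b0 + b0) v = polar q (d.1.1 b0 + b0) v → (c.1 * d.1).1 v = v :=
        fun v hv e => by
          rw [O.mul_apply, h.coef hs' d.2 e1 (s6 s' hs' _ d.2 v hv), ← e, ← h.coef hs' c.2 e1 (s6 s' hs' _ c.2 v hv),
            ← O.mul_apply, h.sq s' hs' _ c.2, O.one_apply]
      exact Subtype.ext ((eq_inv_of_mul_eq_one_left (one _ (mul_mem c.2 d.2) (z s (h.iso _ m' s (h.sw s hs))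
        (congrArg Prod.fst e)) (z _ pe (congrArg Prod.snd e)))).trans (h.inv hs' d.2))
  have c1 := h.card s' hs'
  have c2 := card_le_of_le_perp h.nd (W := B s') fun v hv => mem_perp.2 fun u hu => h.pB hs' hu hv
  rw [Nat.card_prod, Nat.card_zmod] at c4
  nlinarith

end Ob

theorem Sys.ob [Finite V] (h : Sys Γ S A B) (o : ∀ s ∈ S, ∀ s' ∈ S, polar q s s' = 0) :
    ∃ W, Ob Γ S A B W ∧ ∀ w ∈ W, w = 0 ∨ w ∈ S := by
  have k : Ob Γ S A B (Submodule.span _ S) := ⟨h, fun g hg v hv => Submodule.span_le.2 (fun s hs => Submodule.mem_comap.2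
    (Submodule.subset_span (h.cS s hs g hg))) hv |> (Submodule.mem_comap (f := (g.1 : V →ₗ[ZMod 2] V))).1,
    fun u hu v hv => mem_perp.1 (le_perp_comm.1 (Submodule.span_le.2 fun s hs => mem_perp_span.2 fun x hx => o x hx s hs) hv) u hu,
    fun _ e => Submodule.subset_span e⟩
  have le : sub0 S (fun u a v b => k.closed a b) ≤ Submodule.span _ S := fun v hv =>
    hv.elim (· ▸ zero_mem _) fun e => Submodule.subset_span e
  exact ⟨sub0 S fun u a v b => k.closed a b, ⟨h, fun g hg v hv => hv.imp (fun e => by rw [e, map_zero]) (h.cS v · g hg),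
    fun u hu v hv => k.iso u (le hu) v (le hv), fun s => .inr⟩, fun w hw => hw⟩

end Cfsg.Lib.RD
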